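import Mathlib
import Cfsg.Agent.Lib.FrattiniPGroup
set_option linter.all false

/-!
# Two central extensions with the same squaring map are isomorphic
-/

set_option autoImplicit false
set_option linter.style.haveILetI false

namespace Cfsg.Agent.LieRecognition.SquareMapIso

open Subgroup

/-- Let `π : P → V` and `π' : P' → V` be surjections of groups with central kernels, and let `θ` be
an isomorphism of the kernels such that the squares of `x` and `x'` lie in the kernels and correspond
under `θ` whenever `π x = π' x'`.  Then `P` and `P'` are isomorphic. -/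
theorem nonempty_mulEquiv_of_sq {P P' V : Type*} [Group P] [Group P'] [Group V]
    (π : P →* V) (π' : P' →* V) (hπ : Function.Surjective π) (hπ' : Function.Surjective π')
    (hc : π.ker ≤ center P) (hc' : π'.ker ≤ center P')
    (θ : π.ker ≃* π'.ker)
    (hsq : ∀ x x', π x = π' x' → ∃ h : x ^ 2 ∈ π.ker, (θ ⟨x ^ 2, h⟩ : P') = x' ^ 2) :
    Nonempty (P ≃* P') := by
  classical
  -- the fibre product
  let E : Subgroup (P × P') :=
    MonoidHom.eqLocus (π.comp (MonoidHom.fst P P')) (π'.comp (MonoidHom.snd P P'))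
  have hE : ∀ e : P × P', e ∈ E ↔ π e.1 = π' e.2 := fun e => Iff.rfl
  -- the diagonal
  let δ : π.ker →* E :=
    { toFun := fun z => ⟨((z : P), (θ z : P')), by
        rw [hE]
        change π (z : P) = π' (θ z : P')
        rw [MonoidHom.mem_ker.1 z.2, MonoidHom.mem_ker.1 (θ z).2]⟩
      map_one' := by ext <;> simp
      map_mul' := by intro a b; ext <;> simp }
  let Δ : Subgroup E := δ.range
  -- the subgroup `ker π × 1`
  let ι : π.ker →* E :=
    { toFun := fun z => ⟨((z : P), (1 : P')), by
        rw [hE]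
        change π (z : P) = π' (1 : P')
        rw [MonoidHom.mem_ker.1 z.2, map_one]⟩
      map_one' := by ext <;> simp
      map_mul' := by intro a b; ext <;> simp }
  have hΔc : ∀ d ∈ Δ, ∀ e : E, e * d = d * e := by
    rintro _ ⟨z, rfl⟩ e
    ext
    · exact (Subgroup.mem_center_iff.1 (hc z.2) _)
    · exact (Subgroup.mem_center_iff.1 (hc' (θ z).2) _)
  have hΔn : Δ.Normal := by
    refine ⟨fun d hd e => ?_⟩
    rw [hΔc d hd e, mul_assoc, mul_inv_cancel, mul_one]
    exact hd
  have hsqΔ : ∀ e : E, e ^ 2 ∈ Δ := by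
    intro e
    obtain ⟨h, hh⟩ := hsq (e : P × P').1 (e : P × P').2 e.2
    refine ⟨⟨(e : P × P').1 ^ 2, h⟩, ?_⟩
    ext
    · rfl
    · exact hh
  have hpow : ∀ a : E ⧸ Δ, a ^ 2 = 1 := by
    intro a
    induction a using QuotientGroup.induction_on with | H a =>
    rw [← QuotientGroup.mk_pow]
    exact (QuotientGroup.eq_one_iff _).2 (hsqΔ a)
  have hcomm : ∀ a b : E ⧸ Δ, a * b = b * a := by
    intro a b
    have h1 := hpow (a * b)
    have ha := hpow a
    have hb := hpow b
    rw [pow_two] at h1 ha hb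
    have ha' : a⁻¹ = a := inv_eq_of_mul_eq_one_right ha
    have hb' : b⁻¹ = b := inv_eq_of_mul_eq_one_right hb
    have hab' : (a * b)⁻¹ = a * b := inv_eq_of_mul_eq_one_right h1
    rw [mul_inv_rev, ha', hb'] at hab'
    exact hab'.symm
  obtain ⟨K, hK⟩ := Cfsg.Agent.Lib.FrattiniPGroup.exists_isCompl_of_elementary (p := 2) hcomm hpow
    (ι.range.map (QuotientGroup.mk' Δ))
  let C : Subgroup E := K.comap (QuotientGroup.mk' Δ)
  have hΔC : Δ ≤ C := by
    intro d hd
    change QuotientGroup.mk' Δ d ∈ K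
    have : QuotientGroup.mk' Δ d = 1 := (QuotientGroup.eq_one_iff _).2 hd
    rw [this]; exact K.one_mem
  -- an element `(z, 1)` of `C` is trivial
  have hzC : ∀ z : π.ker, ι z ∈ C → z = 1 := by
    intro z hz
    have h1 : QuotientGroup.mk' Δ (ι z) ∈ ι.range.map (QuotientGroup.mk' Δ) ⊓ K :=
      ⟨Subgroup.mem_map_of_mem _ ⟨z, rfl⟩, hz⟩
    rw [hK.inf_eq_bot, Subgroup.mem_bot] at h1
    have h2 : ι z ∈ Δ := (QuotientGroup.eq_one_iff _).1 h1
    obtain ⟨w, hw⟩ := h2
    have h3 : (w : P) = (z : P) := congrArg (fun e : E => (e : P × P').1) hw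
    have h4 : (θ w : P') = 1 := congrArg (fun e : E => (e : P × P').2) hw
    have h5 : θ w = 1 := Subtype.ext h4
    have h6 : w = 1 := by
      rw [← map_one θ] at h5
      exact θ.injective h5
    rw [← Subtype.ext h3, h6]
  -- every element of `E` is `(z, 1) * c`
  have hfac : ∀ e : E, ∃ z : π.ker, ∃ c ∈ C, e = ι z * c := by
    intro e
    have h1 : QuotientGroup.mk' Δ e ∈ ι.range.map (QuotientGroup.mk' Δ) ⊔ K := by
      rw [hK.sup_eq_top]; trivial
    haveI : K.Normal := by
      refine ⟨fun d hd g => ?_⟩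
      rw [hcomm g d, mul_assoc, mul_inv_cancel, mul_one]
      exact hd
    rw [← SetLike.mem_coe, Subgroup.mul_normal] at h1
    obtain ⟨_, ⟨_, ⟨z, rfl⟩, rfl⟩, k, hk, hzk⟩ := h1
    refine ⟨z, (ι z)⁻¹ * e, ?_, by group⟩
    change QuotientGroup.mk' Δ ((ι z)⁻¹ * e) ∈ K
    rw [map_mul, map_inv, ← hzk, inv_mul_cancel_left]
    exact hk
  let f : C →* P := (MonoidHom.fst P P').comp (E.subtype.comp C.subtype)
  let g : C →* P' := (MonoidHom.snd P P').comp (E.subtype.comp C.subtype)
  have hf_apply : ∀ c : C, f c = ((c : E) : P × P').1 := fun c => rfl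
  have hg_apply : ∀ c : C, g c = ((c : E) : P × P').2 := fun c => rfl
  have hf : Function.Bijective f := by
    constructor
    · rw [injective_iff_map_eq_one]
      intro c hc1
      rw [hf_apply] at hc1
      have h1 : π' ((c : E) : P × P').2 = 1 := by
        rw [← (hE _).1 (c : E).2, hc1, map_one]
      obtain ⟨z, hz⟩ := θ.surjective ⟨((c : E) : P × P').2, h1⟩
      have hz' : (θ z : P') = ((c : E) : P × P').2 := congrArg Subtype.val hz
      have h2 : (c : E) = ι z⁻¹ * δ z := by
        ext
        · change ((c : E) : P × P').1 = ((z⁻¹ : π.ker) : P) * (z : P)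
          rw [hc1]; simp
        · change ((c : E) : P × P').2 = (1 : P') * (θ z : P')
          rw [hz', one_mul]
      have h3 : ι z⁻¹ ∈ C := by
        have : ι z⁻¹ = (c : E) * (δ z)⁻¹ := by rw [h2]; group
        rw [this]
        exact C.mul_mem c.2 (C.inv_mem (hΔC ⟨z, rfl⟩))
      have h4 := hzC _ h3
      have h5 : z = 1 := by simpa using h4
      apply Subtype.ext
      rw [h2, h5]; simp
    · intro x
      obtain ⟨x', hx'⟩ := hπ' (π x)
      obtain ⟨z, c, hcC, hzc⟩ := hfac ⟨(x, x'), hx'.symm⟩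
      refine ⟨⟨c * δ z, C.mul_mem hcC (hΔC ⟨z, rfl⟩)⟩, ?_⟩
      rw [hf_apply]
      change (c : P × P').1 * (z : P) = x
      have h1 : x = (z : P) * (c : P × P').1 := congrArg (fun e : E => (e : P × P').1) hzc
      rw [h1]
      exact (Subgroup.mem_center_iff.1 (hc z.2) _)
  have hg : Function.Bijective g := by
    constructor
    · rw [injective_iff_map_eq_one]
      intro c hc1
      rw [hg_apply] at hc1
      have h1 : π ((c : E) : P × P').1 = 1 := by
        rw [(hE _).1 (c : E).2, hc1, map_one]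
      have h2 : (c : E) = ι ⟨((c : E) : P × P').1, h1⟩ := by
        ext
        · rfl
        · exact hc1
      have h3 := hzC ⟨((c : E) : P × P').1, h1⟩ (by rw [← h2]; exact c.2)
      apply Subtype.ext
      rw [h2, h3, map_one]; rfl
    · intro x'
      obtain ⟨x, hx⟩ := hπ (π' x')
      obtain ⟨z, c, hcC, hzc⟩ := hfac ⟨(x, x'), hx⟩
      refine ⟨⟨c, hcC⟩, ?_⟩
      rw [hg_apply]
      have h1 : x' = 1 * (c : P × P').2 := congrArg (fun e : E => (e : P × P').2) hzc
      rw [one_mul] at h1
      exact h1.symm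
  exact ⟨(MulEquiv.ofBijective f hf).symm.trans (MulEquiv.ofBijective g hg)⟩

end Cfsg.Agent.LieRecognition.SquareMapIso
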